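import Cfsg.Agent.Lib.Helper10.SharpBasic

set_option autoImplicit false

namespace Cfsg.Agent.Lib.Helper10

open MulAction

section
variable {G : Type*} [Group G] {Ω : Type*} [MulAction G Ω]

/-- The subgroup of elements commuting with `x` and fixing `p`. -/
def dSub (x : G) (p : Ω) : Subgroup G := Subgroup.centralizer {x} ⊓ stabilizer G p

theorem mem_dSub {x g : G} {p : Ω} : g ∈ dSub x p ↔ g * x = x * g ∧ g • p = p := by
  unfold dSub
  rw [Subgroup.mem_inf, Subgroup.mem_centralizer_singleton_iff, mem_stabilizer_iff]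

/-- The fixed points of `x`, acted on by `dSub x p`. -/
def fixSub (x : G) (p : Ω) : SubMulAction (dSub x p) Ω where
  carrier := {w | x • w = w}
  smul_mem' := fun g w hw => by
    have h1 := (mem_dSub.1 g.2).1
    change x • ((g : G) • w) = (g : G) • w
    have hw' : x • w = w := hw
    rw [← mul_smul, ← h1, mul_smul, hw']

theorem mem_fixSub {x : G} {p w : Ω} : w ∈ fixSub x p ↔ x • w = w := Iff.rfl

end

section core
variable {G : Type*} [Group G] {Ω : Type*} [MulAction G Ω]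
  (h4 : IsMultiplyPretransitive G Ω 4) (hsharp : ∀ x : Fin 4 ↪ Ω, stabilizer G x = ⊥)
  {p1 p2 p3 p4 : Ω} (hnd : [p1, p2, p3, p4].Nodup)
  {x : G} (hx1 : x • p1 = p1) (hx2 : x • p2 = p2) (hx3 : x • p3 = p4) (hx4 : x • p4 = p3)

include hsharp hnd hx1 hx2 hx3 hx4

theorem sharp4_xx : x * x = 1 := by
  apply eq_one_of_fix_list hsharp [p1, p2, p3, p4] hnd rfl
  intro a ha
  simp only [List.mem_cons, List.not_mem_nil, or_false] at ha
  rcases ha with rfl | rfl | rfl | rfl <;> rw [mul_smul] <;> simp only [hx1, hx2, hx3, hx4]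

theorem sharp4_xxs (w : Ω) : x • x • w = w := by
  rw [← mul_smul, sharp4_xx hsharp hnd hx1 hx2 hx3 hx4, one_smul]

theorem sharp4_x_ne_one : x ≠ 1 := by
  rintro rfl
  rw [one_smul] at hx3
  simp [hx3] at hnd

theorem sharp4_d_p4 {g : G} (hg : g ∈ dSub x p3) : g • p4 = p4 := by
  obtain ⟨h1, h2⟩ := mem_dSub.1 hg
  rw [← hx3, ← mul_smul, h1, mul_smul, h2]

theorem sharp4_toPerm_injective :
    Function.Injective (MulAction.toPermHom (dSub x p3) (fixSub x p3)) := by
  rw [injective_iff_map_eq_one]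
  intro g hg
  have key : ∀ w : Ω, x • w = w → (g : G) • w = w := by
    intro w hw
    have h1 := congrArg (fun σ => ((σ ⟨w, hw⟩ : fixSub x p3) : Ω)) hg
    have h1' : g • w = w := by simpa using h1
    exact h1'
  have h2 : (g : G) = 1 := by
    apply eq_one_of_fix_list hsharp [p1, p2, p3, p4] hnd rfl
    intro a ha
    simp only [List.mem_cons, List.not_mem_nil, or_false] at ha
    rcases ha with rfl | rfl | rfl | rfl
    · exact key _ hx1
    · exact key _ hx2
    · exact (mem_dSub.1 g.2).2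
    · exact sharp4_d_p4 hsharp hnd hx1 hx2 hx3 hx4 g.2
  exact Subtype.ext h2

/-- The remaining points. -/
def rSet (x : G) (p3 p4 : Ω) : Set Ω := {c | x • c ≠ c ∧ c ≠ p3 ∧ c ≠ p4}

omit hsharp hnd hx1 hx2 hx3 hx4 in
theorem mem_rSet {x : G} {p3 p4 c : Ω} : c ∈ rSet x p3 p4 ↔ x • c ≠ c ∧ c ≠ p3 ∧ c ≠ p4 :=
  Iff.rfl

theorem sharp4_x_mem_rSet {c : Ω} (hc : c ∈ rSet x p3 p4) : x • c ∈ rSet x p3 p4 := by
  obtain ⟨h1, h2, h3⟩ := hc
  have hxx := sharp4_xxs hsharp hnd hx1 hx2 hx3 hx4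
  refine ⟨?_, ?_, ?_⟩
  · rw [hxx]; exact fun h => h1 h.symm
  · intro h
    apply h3
    rw [← hxx c, h, hx3]
  · intro h
    apply h2
    rw [← hxx c, h, hx4]

theorem sharp4_nodup_aux {c : Ω} (hc : c ∈ rSet x p3 p4) : [p3, p4, c, x • c].Nodup := by
  have hc' := sharp4_x_mem_rSet hsharp hnd hx1 hx2 hx3 hx4 hc
  obtain ⟨h1, h2, h3⟩ := hc
  obtain ⟨_, h5, h6⟩ := hc'
  have h34 : p3 ≠ p4 := by
    intro h; simp [h] at hnd
  simp only [List.nodup_cons, List.mem_cons, List.not_mem_nil, or_false, not_or,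
    List.nodup_nil, and_true, not_false_iff]
  exact ⟨⟨h34, h2.symm, h5.symm⟩, ⟨h3.symm, h6.symm⟩, fun h => h1 h.symm⟩

theorem sharp4_d_smul_mem {c : Ω} (hc : c ∈ rSet x p3 p4) {g : G} (hg : g ∈ dSub x p3) :
    g • c ∈ rSet x p3 p4 := by
  obtain ⟨h1, h2, h3⟩ := hc
  obtain ⟨hg1, hg2⟩ := mem_dSub.1 hg
  have hg4 := sharp4_d_p4 hsharp hnd hx1 hx2 hx3 hx4 hg
  refine ⟨?_, ?_, ?_⟩
  · rw [← mul_smul, ← hg1, mul_smul]
    exact fun h => h1 (smul_left_cancel g h)
  · intro h
    rw [← hg2] at h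
    exact h2 (smul_left_cancel g h)
  · intro h
    rw [← hg4] at h
    exact h3 (smul_left_cancel g h)

include h4 in
theorem sharp4_card_rSet {c0 : Ω} (hc0 : c0 ∈ rSet x p3 p4) :
    Nat.card (rSet x p3 p4) = Nat.card (dSub x p3) := by
  have hxx := sharp4_xxs hsharp hnd hx1 hx2 hx3 hx4
  symm
  apply Nat.card_congr
  refine Equiv.ofBijective (fun g => ⟨(g : G) • c0,
    sharp4_d_smul_mem hsharp hnd hx1 hx2 hx3 hx4 hc0 g.2⟩) ⟨?_, ?_⟩
  · intro g g' h
    have h0 : (g : G) • c0 = (g' : G) • c0 := congrArg Subtype.val h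
    apply Subtype.ext
    apply eq_of_agree_list hsharp [p3, p4, c0, x • c0]
      (sharp4_nodup_aux hsharp hnd hx1 hx2 hx3 hx4 hc0) rfl
    intro a ha
    simp only [List.mem_cons, List.not_mem_nil, or_false] at ha
    rcases ha with rfl | rfl | rfl | rfl
    · rw [(mem_dSub.1 g.2).2, (mem_dSub.1 g'.2).2]
    · rw [sharp4_d_p4 hsharp hnd hx1 hx2 hx3 hx4 g.2,
        sharp4_d_p4 hsharp hnd hx1 hx2 hx3 hx4 g'.2]
    · exact h0
    · rw [← mul_smul, ← mul_smul, (mem_dSub.1 g.2).1, (mem_dSub.1 g'.2).1, mul_smul, mul_smul,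
        h0]
  · rintro ⟨c, hc⟩
    obtain ⟨g, hg⟩ := exists_smul_list h4 [p3, p4, c0, x • c0] [p3, p4, c, x • c]
      (sharp4_nodup_aux hsharp hnd hx1 hx2 hx3 hx4 hc0)
      (sharp4_nodup_aux hsharp hnd hx1 hx2 hx3 hx4 hc) rfl rfl
    simp only [List.map_cons, List.map_nil, List.cons.injEq, and_true] at hg
    obtain ⟨g3, g4, gc, gxc⟩ := hg
    have hgD : g ∈ dSub x p3 := by
      rw [mem_dSub]
      refine ⟨?_, g3⟩
      apply eq_of_agree_list hsharp [p3, p4, c0, x • c0]
        (sharp4_nodup_aux hsharp hnd hx1 hx2 hx3 hx4 hc0) rfl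
      intro a ha
      simp only [List.mem_cons, List.not_mem_nil, or_false] at ha
      rcases ha with rfl | rfl | rfl | rfl
      · rw [mul_smul, mul_smul, hx3, g4, g3, hx3]
      · rw [mul_smul, mul_smul, hx4, g4, g3, hx4]
      · rw [mul_smul, mul_smul, gxc, gc]
      · rw [mul_smul, mul_smul, hxx, gxc, gc, hxx]
    exact ⟨⟨g, hgD⟩, Subtype.ext gc⟩

include h4 in
theorem sharp4_not7 {p5 : Ω} (h5 : x • p5 = p5) (h51 : p5 ≠ p1) (h52 : p5 ≠ p2)
    {c0 : Ω} (hc0 : c0 ∈ rSet x p3 p4) (hR : ∀ c ∈ rSet x p3 p4, c = c0 ∨ c = x • c0) :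
    False := by
  have hxx := sharp4_xxs hsharp hnd hx1 hx2 hx3 hx4
  have hc1 := sharp4_x_mem_rSet hsharp hnd hx1 hx2 hx3 hx4 hc0
  have nd1 := sharp4_nodup_aux hsharp hnd hx1 hx2 hx3 hx4 hc0
  have hfix_ne : ∀ {w c : Ω}, x • w = w → c ∈ rSet x p3 p4 → w ≠ c := by
    rintro w c hw hc rfl
    exact hc.1 hw
  have hnd' := hnd
  simp only [List.nodup_cons, List.mem_cons, List.not_mem_nil, or_false, not_or,
    List.nodup_nil, and_true, not_false_iff] at hnd'
  obtain ⟨⟨h12, h13, h14⟩, ⟨h23, h24⟩, h34⟩ := hnd'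
  have hc01 : c0 ≠ x • c0 := fun h => hc0.1 h.symm
  have nd2 : [p1, p3, c0, x • c0].Nodup := by
    simp only [List.nodup_cons, List.mem_cons, List.not_mem_nil, or_false, not_or,
      List.nodup_nil, and_true, not_false_iff]
    exact ⟨⟨h13, hfix_ne hx1 hc0, hfix_ne hx1 hc1⟩, ⟨hc0.2.1.symm, hc1.2.1.symm⟩, hc01⟩
  obtain ⟨h, hh⟩ := exists_smul_list h4 [p3, p4, c0, x • c0] [p1, p3, c0, x • c0] nd1 nd2 rfl rfl
  simp only [List.map_cons, List.map_nil, List.cons.injEq, and_true] at hh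
  obtain ⟨hh3, hh4, hhc0, hhc1⟩ := hh
  have key : ∀ w, w ≠ p1 → w ≠ p3 → w ≠ c0 → w ≠ x • c0 → (h * x * h⁻¹) • w = w := by
    intro w w1 w3 wc0 wc1
    have hw : h • (h⁻¹ • w) = w := smul_inv_smul h w
    by_cases hv : x • (h⁻¹ • w) = h⁻¹ • w
    · rw [mul_smul, mul_smul, hv, hw]
    · exfalso
      have hvR : h⁻¹ • w ∈ rSet x p3 p4 := by
        refine ⟨hv, ?_, ?_⟩
        · intro h'
          rw [h', hh3] at hw
          exact w1 hw.symm
        · intro h'
          rw [h', hh4] at hw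
          exact w3 hw.symm
      rcases hR _ hvR with h' | h'
      · rw [h', hhc0] at hw
        exact wc0 hw.symm
      · rw [h', hhc1] at hw
        exact wc1 hw.symm
  have h53 : p5 ≠ p3 := by
    rintro rfl
    rw [hx3] at h5
    exact h34 h5.symm
  have nd3 : [p2, p5, c0, x • c0].Nodup := by
    simp only [List.nodup_cons, List.mem_cons, List.not_mem_nil, or_false, not_or,
      List.nodup_nil, and_true, not_false_iff]
    exact ⟨⟨h52.symm, hfix_ne hx2 hc0, hfix_ne hx2 hc1⟩, ⟨hfix_ne h5 hc0, hfix_ne h5 hc1⟩, hc01⟩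
  have hone : x * (h * x * h⁻¹) = 1 := by
    apply eq_one_of_fix_list hsharp [p2, p5, c0, x • c0] nd3 rfl
    intro a ha
    simp only [List.mem_cons, List.not_mem_nil, or_false] at ha
    rcases ha with rfl | rfl | rfl | rfl
    · rw [mul_smul, key _ (Ne.symm h12) h23 (hfix_ne hx2 hc0) (hfix_ne hx2 hc1), hx2]
    · rw [mul_smul, key _ h51 h53 (hfix_ne h5 hc0) (hfix_ne h5 hc1), h5]
    · have e1 : h⁻¹ • a = a := by rw [inv_smul_eq_iff, hhc0]
      rw [mul_smul, mul_smul, mul_smul, e1, hhc1, hxx]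
    · have e1 : h⁻¹ • (x • c0) = x • c0 := by rw [inv_smul_eq_iff, hhc1]
      rw [mul_smul, mul_smul, mul_smul, e1, hxx, hhc0]
  have e2 : (x * (h * x * h⁻¹)) • p1 = p4 := by
    have e1 : h⁻¹ • p1 = p3 := by rw [inv_smul_eq_iff, hh3]
    rw [mul_smul, mul_smul, mul_smul, e1, hx3, hh4, hx3]
  rw [hone, one_smul] at e2
  exact h14 e2

include h4 in
theorem sharp4_core : Finite Ω ∧
    (Nat.card Ω = 4 ∨ Nat.card Ω = 5 ∨ Nat.card Ω = 6 ∨ Nat.card Ω = 11) := by
  classical
  have hxx := sharp4_xxs hsharp hnd hx1 hx2 hx3 hx4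
  have hxne := sharp4_x_ne_one hsharp hnd hx1 hx2 hx3 hx4
  have hnd' := hnd
  simp only [List.nodup_cons, List.mem_cons, List.not_mem_nil, or_false, not_or,
    List.nodup_nil, and_true, not_false_iff] at hnd'
  obtain ⟨⟨h12, h13, h14⟩, ⟨h23, h24⟩, h34⟩ := hnd'
  set F : Set Ω := {w | x • w = w} with hF
  set R : Set Ω := rSet x p3 p4 with hR
  have hFfin : F.Finite := fixed_finite hsharp x hxne
  have hF4 : F.ncard < 4 := fixed_ncard_lt hsharp x hxne
  have hsub : ({p1, p2} : Set Ω) ⊆ F := by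
    rintro w (rfl | rfl)
    · exact hx1
    · exact hx2
  have hF2 : 2 ≤ F.ncard := by
    rw [← Set.ncard_pair h12]
    exact Set.ncard_le_ncard hsub hFfin
  have hcardF : Nat.card (fixSub x p3) = F.ncard := by
    rw [← Nat.card_coe_set_eq]
    rfl
  have : Finite (fixSub x p3) := hFfin
  have hinj := sharp4_toPerm_injective hsharp hnd hx1 hx2 hx3 hx4
  have hDfin : Finite (dSub x p3) := Finite.of_injective _ hinj
  have hDdvd : Nat.card (dSub x p3) ∣ (F.ncard).factorial := by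
    have := Subgroup.card_dvd_of_injective _ hinj
    rwa [Nat.card_perm, hcardF] at this
  have hRclaim : R.Finite ∧ (R.ncard = 0 ∨ R.ncard ∣ (F.ncard).factorial) := by
    by_cases hRe : R = ∅
    · rw [hRe]; simp
    · obtain ⟨c0, hc0⟩ := Set.nonempty_iff_ne_empty.2 hRe
      have hc := sharp4_card_rSet h4 hsharp hnd hx1 hx2 hx3 hx4 hc0
      have hpos : 0 < Nat.card (dSub x p3) := Nat.card_pos
      have hRfin : Finite R := by
        apply Nat.finite_of_card_ne_zero
        rw [hc]; omega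
      refine ⟨Set.toFinite R, Or.inr ?_⟩
      rw [← Nat.card_coe_set_eq, hc]
      exact hDdvd
  obtain ⟨hRfin, hRdvd⟩ := hRclaim
  have hU : (Set.univ : Set Ω) = F ∪ ({p3, p4} ∪ R) := by
    ext w
    simp only [Set.mem_univ, Set.mem_union, Set.mem_insert_iff, Set.mem_singleton_iff, true_iff]
    by_cases h1 : x • w = w
    · left; exact h1
    · by_cases h2 : w = p3
      · right; left; left; exact h2
      · by_cases h3 : w = p4
        · right; left; right; exact h3
        · right; right; exact ⟨h1, h2, h3⟩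
  have hPRfin : (({p3, p4} : Set Ω) ∪ R).Finite := (Set.toFinite _).union hRfin
  have hΩfin : Finite Ω := by
    rw [← Set.finite_univ_iff, hU]
    exact hFfin.union hPRfin
  have hd1 : Disjoint ({p3, p4} : Set Ω) R := by
    rw [Set.disjoint_left]
    rintro w (rfl | rfl) hw
    · exact hw.2.1 rfl
    · exact hw.2.2 rfl
  have hd2 : Disjoint F (({p3, p4} : Set Ω) ∪ R) := by
    rw [Set.disjoint_left]
    rintro w hw ((rfl | rfl) | hw')
    · have : x • w = w := hw
      rw [hx3] at this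
      exact h34 this.symm
    · have : x • w = w := hw
      rw [hx4] at this
      exact h34 this
    · exact hw'.1 hw
  have hPR : (({p3, p4} : Set Ω) ∪ R).ncard = 2 + R.ncard := by
    rw [Set.ncard_union_eq hd1 (Set.toFinite _) hRfin, Set.ncard_pair h34]
  have hcard : Nat.card Ω = F.ncard + (2 + R.ncard) := by
    rw [← Set.ncard_univ, hU, Set.ncard_union_eq hd2 hFfin hPRfin, hPR]
  have hpar : 2 ∣ 2 + R.ncard := by
    have : Fintype Ω := Fintype.ofFinite Ω
    have h1 : (MulAction.toPerm x : Equiv.Perm Ω) ^ 2 = 1 := by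
      ext w
      simp [pow_two, hxx]
    have h2 := Equiv.Perm.two_dvd_card_support h1
    have h3 : (↑(MulAction.toPerm x : Equiv.Perm Ω).support : Set Ω) = {p3, p4} ∪ R := by
      ext w
      simp only [Finset.mem_coe, Equiv.Perm.mem_support, MulAction.toPerm_apply, Set.mem_union,
        Set.mem_insert_iff, Set.mem_singleton_iff]
      constructor
      · intro h1
        by_cases h2 : w = p3
        · left; left; exact h2
        · by_cases h3 : w = p4
          · left; right; exact h3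
          · right; exact ⟨h1, h2, h3⟩
      · rintro ((rfl | rfl) | hw)
        · rw [hx3]; exact Ne.symm h34
        · rw [hx4]; exact h34
        · exact hw.1
    rw [← hPR, ← h3, Set.ncard_coe_finset]
    exact h2
  have hnot7 : ¬ (F.ncard = 3 ∧ R.ncard = 2) := by
    rintro ⟨hf3, hr2⟩
    obtain ⟨p5, hp5, hp5'⟩ := Set.exists_mem_notMem_of_ncard_lt_ncard
      (s := ({p1, p2} : Set Ω)) (t := F) (by rw [Set.ncard_pair h12, hf3]; norm_num)
      (Set.toFinite _)
    simp only [Set.mem_insert_iff, Set.mem_singleton_iff, not_or] at hp5'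
    have hRne : R.Nonempty := by
      rw [← Set.ncard_pos hRfin, hr2]; norm_num
    obtain ⟨c0, hc0⟩ := hRne
    have hc1 := sharp4_x_mem_rSet hsharp hnd hx1 hx2 hx3 hx4 hc0
    have hc01 : c0 ≠ x • c0 := fun h => hc0.1 h.symm
    have hsub2 : ({c0, x • c0} : Set Ω) ⊆ R := by
      rintro w (rfl | rfl)
      · exact hc0
      · exact hc1
    have heq := Set.eq_of_subset_of_ncard_le hsub2 (by rw [Set.ncard_pair hc01, hr2]) hRfin
    apply sharp4_not7 h4 hsharp hnd hx1 hx2 hx3 hx4 hp5 hp5'.1 hp5'.2 hc0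
    intro c hc
    have : c ∈ ({c0, x • c0} : Set Ω) := by rw [heq]; exact hc
    simpa using this
  refine ⟨hΩfin, ?_⟩
  rw [hcard]
  generalize F.ncard = f at *
  generalize R.ncard = r at *
  have hf : f = 2 ∨ f = 3 := by omega
  rcases hf with rfl | rfl
  · have hr : r ≤ 2 := by
      rcases hRdvd with h | h
      · omega
      · exact Nat.le_of_dvd (by norm_num) h
    omega
  · have hr : r = 0 ∨ r ∣ 6 := hRdvd
    have hr6 : r ≤ 6 := by
      rcases hr with h | h
      · omega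
      · exact Nat.le_of_dvd (by norm_num) h
    have hr4 : r ≠ 4 := by
      rintro rfl
      rcases hr with h | h
      · omega
      · omega
    have hr2 : r ≠ 2 := fun h => hnot7 ⟨rfl, h⟩
    omega

end core

/-- Jordan / Tits: degrees of sharply 4-transitive actions. -/
theorem sharp4_degree {G : Type*} [Group G] {Ω : Type*} [MulAction G Ω]
    (h4 : IsMultiplyPretransitive G Ω 4) (hsharp : ∀ x : Fin 4 ↪ Ω, stabilizer G x = ⊥)
    (hne : Nonempty (Fin 4 ↪ Ω)) : Finite Ω ∧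
    (Nat.card Ω = 4 ∨ Nat.card Ω = 5 ∨ Nat.card Ω = 6 ∨ Nat.card Ω = 11) := by
  obtain ⟨e⟩ := hne
  have hne' : ∀ i j : Fin 4, i ≠ j → e i ≠ e j := fun i j hij h => hij (e.injective h)
  have hnd : [e 0, e 1, e 2, e 3].Nodup := by
    simp only [List.nodup_cons, List.mem_cons, List.not_mem_nil, or_false, not_or,
      List.nodup_nil, and_true, not_false_iff]
    exact ⟨⟨hne' _ _ (by decide), hne' _ _ (by decide), hne' _ _ (by decide)⟩,
      ⟨hne' _ _ (by decide), hne' _ _ (by decide)⟩, hne' _ _ (by decide)⟩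
  have hnd2 : [e 0, e 1, e 3, e 2].Nodup := by
    simp only [List.nodup_cons, List.mem_cons, List.not_mem_nil, or_false, not_or,
      List.nodup_nil, and_true, not_false_iff]
    exact ⟨⟨hne' _ _ (by decide), hne' _ _ (by decide), hne' _ _ (by decide)⟩,
      ⟨hne' _ _ (by decide), hne' _ _ (by decide)⟩, hne' _ _ (by decide)⟩
  obtain ⟨x, hx⟩ := exists_smul_list h4 _ _ hnd hnd2 rfl rfl
  simp only [List.map_cons, List.map_nil, List.cons.injEq, and_true] at hx
  obtain ⟨hx1, hx2, hx3, hx4⟩ := hx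
  exact sharp4_core h4 hsharp hnd hx1 hx2 hx3 hx4

end Cfsg.Agent.Lib.Helper10
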