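import Mathlib

set_option autoImplicit false

namespace Cfsg.Agent.Lib.Helper10

open MulAction

section
variable {G : Type*} [Group G] {Ω : Type*} [MulAction G Ω]

/-- The embedding of `Fin k` given by a duplicate-free list of length `k`. -/
def listEmb (l : List Ω) (hl : l.Nodup) (k : ℕ) (hk : l.length = k) : Fin k ↪ Ω :=
  ⟨fun i => l.get (i.cast hk.symm), fun i j h => by
    have h1 := (List.nodup_iff_injective_get.1 hl) h
    exact Fin.cast_injective _ h1⟩

theorem listEmb_apply (l : List Ω) (hl : l.Nodup) (k : ℕ) (hk : l.length = k) (i : Fin k) :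
    listEmb l hl k hk i = l.get (i.cast hk.symm) := rfl

theorem exists_smul_list {k : ℕ} (h : IsMultiplyPretransitive G Ω k) (l l' : List Ω)
    (hl : l.Nodup) (hl' : l'.Nodup) (hk : l.length = k) (hk' : l'.length = k) :
    ∃ g : G, l.map (fun a => g • a) = l' := by
  obtain ⟨g, hg⟩ := h.exists_smul_eq (listEmb l hl k hk) (listEmb l' hl' k hk')
  refine ⟨g, ?_⟩
  apply List.ext_get
  · rw [List.length_map, hk, hk']
  · intro n h1 h2
    have h3 : n < k := by rw [← hk']; exact h2
    have h4 := DFunLike.congr_fun hg ⟨n, h3⟩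
    rw [Function.Embedding.smul_apply, listEmb_apply, listEmb_apply] at h4
    simpa using h4

theorem eq_one_of_fix_list {k : ℕ} (hsharp : ∀ x : Fin k ↪ Ω, stabilizer G x = ⊥)
    (l : List Ω) (hl : l.Nodup) (hk : l.length = k) (g : G) (hg : ∀ a ∈ l, g • a = a) :
    g = 1 := by
  have h1 : g ∈ stabilizer G (listEmb l hl k hk) := by
    rw [mem_stabilizer_iff]
    ext i
    rw [Function.Embedding.smul_apply, listEmb_apply]
    exact hg _ (List.get_mem _ _)
  rw [hsharp] at h1
  exact Subgroup.mem_bot.1 h1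

theorem eq_of_agree_list {k : ℕ} (hsharp : ∀ x : Fin k ↪ Ω, stabilizer G x = ⊥)
    (l : List Ω) (hl : l.Nodup) (hk : l.length = k) (g h : G) (hg : ∀ a ∈ l, g • a = h • a) :
    g = h := by
  have h1 : h⁻¹ * g = 1 := eq_one_of_fix_list hsharp l hl hk _ (by
    intro a ha
    rw [mul_smul, hg a ha, inv_smul_smul])
  exact (inv_mul_eq_one.1 h1).symm

/-- An element fixing at least `k` points is trivial; finset form. -/
theorem card_fixed_lt {k : ℕ} (hsharp : ∀ x : Fin k ↪ Ω, stabilizer G x = ⊥)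
    (g : G) (hg : g ≠ 1) (s : Finset Ω) (hs : ∀ a ∈ s, g • a = a) : s.card < k := by
  by_contra hcon
  push Not at hcon
  obtain ⟨t, ht1, ht2⟩ := Finset.exists_subset_card_eq hcon
  apply hg
  apply eq_one_of_fix_list hsharp t.toList t.nodup_toList (by rw [Finset.length_toList, ht2])
  intro a ha
  exact hs a (ht1 (Finset.mem_toList.1 ha))

theorem fixed_finite {k : ℕ} (hsharp : ∀ x : Fin k ↪ Ω, stabilizer G x = ⊥)
    (g : G) (hg : g ≠ 1) : {a : Ω | g • a = a}.Finite := by
  by_contra hcon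
  obtain ⟨t, ht1, ht2⟩ := Set.Infinite.exists_subset_card_eq hcon k
  have := card_fixed_lt hsharp g hg t (fun a ha => ht1 ha)
  omega

theorem fixed_ncard_lt {k : ℕ} (hsharp : ∀ x : Fin k ↪ Ω, stabilizer G x = ⊥)
    (g : G) (hg : g ≠ 1) : {a : Ω | g • a = a}.ncard < k := by
  have hf := fixed_finite hsharp g hg
  rw [Set.ncard_eq_toFinset_card _ hf]
  apply card_fixed_lt hsharp g hg
  intro a ha
  exact (Set.Finite.mem_toFinset hf).1 ha

end

end Cfsg.Agent.Lib.Helper10
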