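import Cfsg.Agent.Lib.Helper10.Sharp4

set_option autoImplicit false

namespace Cfsg.Agent.Lib.Helper10

open MulAction SubMulAction

section
variable {G : Type*} [Group G] {Ω : Type*} [MulAction G Ω]

theorem pretransitive_of_multiply {k : ℕ} (hk : IsMultiplyPretransitive G Ω (k + 1))
    (hne : Nonempty (Fin (k + 1) ↪ Ω)) : IsPretransitive G Ω := by
  obtain ⟨e⟩ := hne
  have h1 : ((k + 1 : ℕ) : ENat) ≤ ENat.card Ω := by
    have := ENat.card_le_card_of_injective e.injective
    simpa using this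
  have h2 : IsMultiplyPretransitive G Ω 1 :=
    isMultiplyPretransitive_of_le' (n := k + 1) (by omega) h1
  exact is_one_pretransitive_iff.1 h2

theorem sharp_step {k : ℕ} (hk : IsMultiplyPretransitive G Ω (k + 1))
    (hsharp : ∀ x : Fin (k + 1) ↪ Ω, stabilizer G x = ⊥)
    (hne : Nonempty (Fin (k + 1) ↪ Ω)) (a : Ω) :
    IsMultiplyPretransitive (stabilizer G a) (ofStabilizer G a) k ∧
    (∀ x : Fin k ↪ ofStabilizer G a, stabilizer (stabilizer G a) x = ⊥) ∧
    Nonempty (Fin k ↪ ofStabilizer G a) := by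
  have hpre := pretransitive_of_multiply hk hne
  refine ⟨ofStabilizer.isMultiplyPretransitive.1 hk, ?_, ?_⟩
  · intro x
    rw [eq_bot_iff]
    intro g hg
    rw [mem_stabilizer_iff] at hg
    have h1 : (g : G) ∈ stabilizer G (ofStabilizer.snoc x) := by
      rw [mem_stabilizer_iff]
      ext i
      rw [Function.Embedding.smul_apply]
      rcases Fin.eq_castSucc_or_eq_last i with ⟨j, rfl⟩ | rfl
      · rw [ofStabilizer.snoc_castSucc]
        have h2 := DFunLike.congr_fun hg j
        rw [Function.Embedding.smul_apply] at h2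
        exact congrArg Subtype.val h2
      · rw [ofStabilizer.snoc_last]
        exact g.2
    rw [hsharp] at h1
    rw [Subgroup.mem_bot]
    exact Subtype.ext (Subgroup.mem_bot.1 h1)
  · obtain ⟨e⟩ := hne
    obtain ⟨_, y, _⟩ := exists_smul_of_last_eq G a e
    exact ⟨y⟩

/-- Degrees of sharply 5-transitive actions. -/
theorem sharp5_degree [Finite Ω] (h5 : IsMultiplyPretransitive G Ω 5)
    (hsharp : ∀ x : Fin 5 ↪ Ω, stabilizer G x = ⊥) (hne : Nonempty (Fin 5 ↪ Ω)) :
    Nat.card Ω = 5 ∨ Nat.card Ω = 6 ∨ Nat.card Ω = 7 ∨ Nat.card Ω = 12 := by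
  obtain ⟨e⟩ := hne
  obtain ⟨h1, h2, h3⟩ := sharp_step h5 hsharp ⟨e⟩ (e 0)
  have h4 := (sharp4_degree h1 h2 h3).2
  have h6 := nat_card_ofStabilizer_add_one_eq G (e 0)
  omega

end

end Cfsg.Agent.Lib.Helper10
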